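import Mathlib

/-!
# Numbers of solutions of `g ^ n = 1`, affine groups

Tools for computing order types of small groups: the structure `Aff u` is the semidirect product
of an additive group `V` by a group `K` acting through `u`.
-/

namespace Cfsg.Agent.OrderType

/-- The semidirect product of `V` by `K` along `u`. -/
@[ext] structure Aff {K V : Type} [Monoid K] [AddCommGroup V] (u : K →* AddMonoid.End V) : Type where
  v : V
  k : K

namespace Aff

variable {K V : Type} [Group K] [AddCommGroup V] {u : K →* AddMonoid.End V}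

instance instMulAff : Mul (Aff u) := ⟨fun a b => ⟨a.v + u a.k b.v, a.k * b.k⟩⟩
instance instOneAff : One (Aff u) := ⟨⟨0, 1⟩⟩
instance instInvAff : Inv (Aff u) := ⟨fun a => ⟨-(u a.k⁻¹ a.v), a.k⁻¹⟩⟩

theorem mul_def (a b : Aff u) : a * b = ⟨a.v + u a.k b.v, a.k * b.k⟩ := rfl
theorem one_def : (1 : Aff u) = ⟨0, 1⟩ := rfl
theorem inv_def (a : Aff u) : a⁻¹ = ⟨-(u a.k⁻¹ a.v), a.k⁻¹⟩ := rfl

theorem u_mul (a b : K) (x : V) : u (a * b) x = u a (u b x) := by rw [map_mul]; rfl

theorem u_one (x : V) : u 1 x = x := by rw [map_one]; rfl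

instance instGroupAff : Group (Aff u) :=
  Group.ofLeftAxioms
    (fun a b c => Aff.ext (by simp [mul_def, u_mul, add_assoc]) (by simp [mul_def, mul_assoc]))
    (fun a => Aff.ext (by simp [mul_def, one_def, u_one]) (by simp [mul_def, one_def]))
    (fun a => Aff.ext (by simp [mul_def, inv_def, one_def]) (by simp [mul_def, inv_def, one_def]))

/-- Coordinates. -/
def equivProd : Aff u ≃ V × K where
  toFun a := (a.v, a.k)
  invFun x := ⟨x.1, x.2⟩
  left_inv _ := rfl
  right_inv _ := rfl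

instance instFintypeAff [Fintype K] [Fintype V] : Fintype (Aff u) :=
  Fintype.ofEquiv _ (equivProd (u := u)).symm

instance instFiniteAff [Finite K] [Finite V] : Finite (Aff u) :=
  Finite.of_equiv _ (equivProd (u := u)).symm

instance instDecidableEqAff [DecidableEq K] [DecidableEq V] : DecidableEq (Aff u) :=
  fun a b => decidable_of_iff (a.v = b.v ∧ a.k = b.k) (Aff.ext_iff).symm

/-- Vector part of a power. -/
def geo (u : K →* AddMonoid.End V) (k : K) (v : V) : ℕ → V
  | 0 => 0
  | n + 1 => v + u k (geo u k v n)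

theorem pow_eq (a : Aff u) (n : ℕ) : a ^ n = ⟨geo u a.k a.v n, a.k ^ n⟩ := by
  induction n with
  | zero => simp [geo, one_def]
  | succ n ih => rw [pow_succ', ih, mul_def, pow_succ']; rfl

theorem isSolvable [hK : Group.IsSolvable K] : Group.IsSolvable (Aff u) := by
  let inl : Multiplicative V →* Aff u :=
    { toFun := fun x => ⟨x.toAdd, 1⟩
      map_one' := rfl
      map_mul' := fun x y => by simp [mul_def, u_one] }
  let pr : Aff u →* K := { toFun := Aff.k, map_one' := rfl, map_mul' := fun _ _ => rfl }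
  have : Group.IsSolvable (Multiplicative V) := Group.isSolvable_of_comm fun a b => mul_comm a b
  exact Group.isSolvable_of_ker_le_range inl pr fun a ha =>
    ⟨Multiplicative.ofAdd a.v, Aff.ext rfl (MonoidHom.mem_ker.1 ha).symm⟩

theorem card_pow_eq_one [Fintype K] [Finite V] [DecidableEq K] (n : ℕ) :
    Nat.card {g : Aff u // g ^ n = 1} =
      ∑ k : K, if k ^ n = 1 then Nat.card {v : V // geo u k v n = 0} else 0 := by
  have e : {g : Aff u // g ^ n = 1} ≃ Σ k : K, {v : V // k ^ n = 1 ∧ geo u k v n = 0} :=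
    { toFun := fun g => ⟨g.1.k, g.1.v, by
        have := Aff.ext_iff.1 ((pow_eq g.1 n).symm.trans g.2)
        exact ⟨this.2, this.1⟩⟩
      invFun := fun x => ⟨⟨x.2.1, x.1⟩, by rw [pow_eq, one_def, Aff.ext_iff]; exact ⟨x.2.2.2, x.2.2.1⟩⟩
      left_inv := fun _ => rfl
      right_inv := fun _ => rfl }
  rw [Nat.card_congr e, Nat.card_sigma]
  refine Finset.sum_congr rfl fun k _ => ?_
  split_ifs with h
  · exact Nat.card_congr (Equiv.subtypeEquivRight fun v => by simp [h])
  · exact Nat.card_eq_zero.2 (Or.inl ⟨fun v => h v.2.1⟩)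

end Aff

/-- `G` has exponent dividing `N`, and `t` gives its numbers of solutions of `g ^ d = 1`, `d ∣ N`. -/
structure HasCounts (G : Type) [Group G] (N : ℕ) (t : ℕ → ℕ) : Prop where
  pow_eq_one : ∀ g : G, g ^ N = 1
  card_eq : ∀ d ∈ N.divisors, Nat.card {g : G // g ^ d = 1} = t d

theorem HasCounts.card_pow {G : Type} [Group G] {N : ℕ} {t : ℕ → ℕ} (h : HasCounts G N t)
    (hN : N ≠ 0) (n : ℕ) : Nat.card {g : G // g ^ n = 1} = t (Nat.gcd n N) := by
  rw [← h.card_eq _ (Nat.mem_divisors.2 ⟨Nat.gcd_dvd_right n N, hN⟩)]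
  exact Nat.card_congr (Equiv.subtypeEquivRight fun g =>
    ⟨fun hg => pow_gcd_eq_one.2 ⟨hg, h.pow_eq_one g⟩,
      fun hg => orderOf_dvd_iff_pow_eq_one.1
        ((orderOf_dvd_of_pow_eq_one hg).trans (Nat.gcd_dvd_left n N))⟩)

theorem HasCounts.prod {G H : Type} [Group G] [Group H] {N : ℕ} {t s : ℕ → ℕ}
    (hG : HasCounts G N t) (hH : HasCounts H N s) : HasCounts (G × H) N (fun d => t d * s d) where
  pow_eq_one g := Prod.ext (hG.pow_eq_one g.1) (hH.pow_eq_one g.2)
  card_eq d hd := by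
    rw [← hG.card_eq d hd, ← hH.card_eq d hd, ← Nat.card_prod]
    exact Nat.card_congr
      { toFun := fun g => (⟨g.1.1, congrArg Prod.fst g.2⟩, ⟨g.1.2, congrArg Prod.snd g.2⟩)
        invFun := fun x => ⟨(x.1.1, x.2.1), Prod.ext x.1.2 x.2.2⟩
        left_inv := fun _ => rfl
        right_inv := fun _ => rfl }

theorem HasCounts.pi {G : Type} [Group G] {N : ℕ} {t : ℕ → ℕ} (hG : HasCounts G N t) (m : ℕ) :
    HasCounts (Fin m → G) N (fun d => t d ^ m) where
  pow_eq_one g := funext fun i => hG.pow_eq_one (g i)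
  card_eq d hd := by
    show _ = t d ^ m
    rw [← hG.card_eq d hd]
    refine (Nat.card_congr (β := Fin m → {g : G // g ^ d = 1}) ?_).trans (by rw [Nat.card_fun, Nat.card_fin])
    exact
      { toFun := fun g i => ⟨g.1 i, congrFun g.2 i⟩
        invFun := fun x => ⟨fun i => (x i).1, funext fun i => (x i).2⟩
        left_inv := fun _ => rfl
        right_inv := fun _ => rfl }

theorem isSolvable_fun {G : Type} [Group G] [h : Group.IsSolvable G] (m : ℕ) :
    Group.IsSolvable (Fin m → G) := by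
  obtain ⟨n, hn⟩ := (Group.isSolvable_def G).1 h
  refine (Group.isSolvable_def _).2 ⟨n, (Subgroup.eq_bot_iff_forall _).2 fun g hg => funext fun i => ?_⟩
  have := map_derivedSeries_le_derivedSeries (Pi.evalMonoidHom (fun _ : Fin m => G) i) n
    (Subgroup.mem_map_of_mem _ hg)
  rw [hn, Subgroup.mem_bot] at this
  exact this

/-- If every element is killed by one of the exponents in `E`, solutions of `g ^ n = 1` are found
with small exponents only. -/
theorem pow_eq_one_iff_exists {G : Type} [Monoid G] (E : List ℕ) (g : G)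
    (h : ∃ e ∈ E, g ^ e = 1) (n : ℕ) : g ^ n = 1 ↔ ∃ e ∈ E, g ^ Nat.gcd n e = 1 := by
  constructor
  · intro hn
    obtain ⟨e, he, hge⟩ := h
    exact ⟨e, he, pow_gcd_eq_one.2 ⟨hn, hge⟩⟩
  · rintro ⟨e, -, hge⟩
    obtain ⟨c, hc⟩ := Nat.gcd_dvd_left n e
    rw [hc, pow_mul, hge, one_pow]

theorem HasCounts.of_list {G : Type} [Group G] [Fintype G] [DecidableEq G] {N : ℕ} {t : ℕ → ℕ}
    (E : List ℕ) (hE : ∀ e ∈ E, e ∣ N) (h : ∀ g : G, ∃ e ∈ E, g ^ e = 1)
    (ht : ∀ d ∈ N.divisors,
      (Finset.univ.filter fun g : G => ∃ e ∈ E, g ^ Nat.gcd d e = 1).card = t d) :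
    HasCounts G N t where
  pow_eq_one g := by
    obtain ⟨e, he, hge⟩ := h g
    obtain ⟨c, rfl⟩ := hE e he
    rw [pow_mul, hge, one_pow]
  card_eq d hd := by
    rw [← ht d hd, Nat.card_eq_fintype_card, Fintype.card_subtype]
    exact congrArg Finset.card (Finset.filter_congr fun g _ => pow_eq_one_iff_exists E g (h g) d)

/-! ### Metabelian groups `(Z/A × Z/B × Z/C) ⋊ (Z/a × Z/b)` with diagonal action -/

section Meta

variable {a b A B C : ℕ}

/-- The acting group. -/
abbrev MK (a b : ℕ) : Type := Multiplicative (ZMod a × ZMod b)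
/-- The normal subgroup. -/
abbrev MV (A B C : ℕ) : Type := ZMod A × ZMod B × ZMod C

/-- The action by multiplication. -/
def mulEnd (χ : MK a b →* MV A B C) : MK a b →* AddMonoid.End (MV A B C) where
  toFun k := AddMonoidHom.mulLeft (χ k)
  map_one' := AddMonoidHom.ext fun x => by
    show χ 1 * x = x
    rw [map_one, one_mul]
  map_mul' k l := AddMonoidHom.ext fun x => by
    show χ (k * l) * x = χ k * (χ l * x)
    rw [map_mul, mul_assoc]

/-- `1 + s + ⋯ + s ^ (n-1)`. -/
def gsum {R : Type} [CommRing R] (s : R) : ℕ → R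
  | 0 => 0
  | n + 1 => 1 + s * gsum s n

theorem geo_mulEnd (χ : MK a b →* MV A B C) (k : MK a b) (v : MV A B C) (n : ℕ) :
    Aff.geo (mulEnd χ) k v n = gsum (χ k) n * v := by
  induction n with
  | zero => simp [Aff.geo, gsum]
  | succ n ih =>
    show v + χ k * Aff.geo (mulEnd χ) k v n = (1 + χ k * gsum (χ k) n) * v
    rw [ih]; ring

variable [NeZero a] [NeZero b] [NeZero A] [NeZero B] [NeZero C]

/-- Size of an annihilator in `Z/A`. -/
def annCard {A : ℕ} [NeZero A] (s : ZMod A) : ℕ :=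
  (Finset.univ.filter fun x : ZMod A => s * x = 0).card

/-- Solutions of `g ^ n = 1` in the metabelian group. -/
def metaCount (χ : MK a b →* MV A B C) (n : ℕ) : ℕ :=
  ∑ k : MK a b, if k ^ n = 1 then
    annCard (gsum (χ k) n).1 * (annCard (gsum (χ k) n).2.1 * annCard (gsum (χ k) n).2.2) else 0

theorem card_pow_metaCount (χ : MK a b →* MV A B C) (n : ℕ) :
    Nat.card {g : Aff (mulEnd χ) // g ^ n = 1} = metaCount χ n := by
  rw [Aff.card_pow_eq_one, metaCount]
  refine Finset.sum_congr rfl fun k _ => ?_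
  split_ifs with h
  swap
  · rfl
  set s := gsum (χ k) n with hs
  have e : {v : MV A B C // Aff.geo (mulEnd χ) k v n = 0} ≃
      {x : ZMod A // s.1 * x = 0} × {x : ZMod B // s.2.1 * x = 0} × {x : ZMod C // s.2.2 * x = 0} :=
    (Equiv.subtypeEquivRight fun v => by
      rw [geo_mulEnd, ← hs]; simp [Prod.ext_iff]).trans
    { toFun := fun v : {v : MV A B C // s.1 * v.1 = 0 ∧ s.2.1 * v.2.1 = 0 ∧ s.2.2 * v.2.2 = 0} =>
        (⟨v.1.1, v.2.1⟩, ⟨v.1.2.1, v.2.2.1⟩, ⟨v.1.2.2, v.2.2.2⟩)
      invFun := fun x => ⟨(x.1.1, x.2.1.1, x.2.2.1), x.1.2, x.2.1.2, x.2.2.2⟩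
      left_inv := fun _ => rfl
      right_inv := fun _ => rfl }
  rw [Nat.card_congr e, Nat.card_prod, Nat.card_prod]
  simp only [Nat.card_eq_fintype_card, Fintype.card_subtype, annCard]

theorem HasCounts.of_meta {N : ℕ} {t : ℕ → ℕ} (hN : N ≠ 0) (χ : MK a b →* MV A B C)
    (hcard : metaCount χ N = a * b * (A * (B * C)))
    (ht : ∀ d ∈ N.divisors, metaCount χ d = t d) : HasCounts (Aff (mulEnd χ)) N t where
  pow_eq_one := by
    have h1 : Nat.card {g : Aff (mulEnd χ) // g ^ N = 1} = Nat.card (Aff (mulEnd χ)) := by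
      rw [card_pow_metaCount, hcard, Nat.card_congr Aff.equivProd]
      simp only [Nat.card_prod, Nat.card_eq_fintype_card, Fintype.card_prod, Fintype.card_multiplicative, ZMod.card]
      ring
    intro g
    by_contra hg
    exact (Finite.card_subtype_lt (p := fun g : Aff (mulEnd χ) => g ^ N = 1) hg).ne h1
  card_eq d hd := by rw [card_pow_metaCount]; exact ht d hd

end Meta

end Cfsg.Agent.OrderType
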