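import Cfsg.Agent.OrderType.Basic

/-!
# The group GL(3,2): numbers of solutions of `g ^ d = 1`, non-solvability
-/

namespace Cfsg.Agent.OrderType

/-- `3 × 3` matrices over the field with two elements, in coordinates. -/
@[ext] structure M3 : Type where
  a : ZMod 2
  b : ZMod 2
  c : ZMod 2
  d : ZMod 2
  e : ZMod 2
  f : ZMod 2
  g : ZMod 2
  h : ZMod 2
  i : ZMod 2

namespace M3

open scoped commutatorElement

/-- Coordinates. -/
def coords : M3 ≃ (ZMod 2 × ZMod 2 × ZMod 2) × (ZMod 2 × ZMod 2 × ZMod 2) × (ZMod 2 × ZMod 2 × ZMod 2) where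
  toFun m := ((m.a, m.b, m.c), (m.d, m.e, m.f), (m.g, m.h, m.i))
  invFun x := ⟨x.1.1, x.1.2.1, x.1.2.2, x.2.1.1, x.2.1.2.1, x.2.1.2.2, x.2.2.1, x.2.2.2.1, x.2.2.2.2⟩
  left_inv _ := rfl
  right_inv _ := rfl

instance instFintypeM3 : Fintype M3 := Fintype.ofEquiv _ coords.symm

instance instDecidableEqM3 : DecidableEq M3 :=
  fun x y => decidable_of_iff (coords x = coords y) coords.injective.eq_iff

instance instOneM3 : One M3 := ⟨⟨1, 0, 0, 0, 1, 0, 0, 0, 1⟩⟩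

instance instMulM3 : Mul M3 := ⟨fun x y =>
    ⟨x.a * y.a + x.b * y.d + x.c * y.g, x.a * y.b + x.b * y.e + x.c * y.h,
      x.a * y.c + x.b * y.f + x.c * y.i,
     x.d * y.a + x.e * y.d + x.f * y.g, x.d * y.b + x.e * y.e + x.f * y.h,
      x.d * y.c + x.e * y.f + x.f * y.i,
     x.g * y.a + x.h * y.d + x.i * y.g, x.g * y.b + x.h * y.e + x.i * y.h,
      x.g * y.c + x.h * y.f + x.i * y.i⟩⟩

theorem mul_def (x y : M3) : x * y =
    ⟨x.a * y.a + x.b * y.d + x.c * y.g, x.a * y.b + x.b * y.e + x.c * y.h,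
      x.a * y.c + x.b * y.f + x.c * y.i,
     x.d * y.a + x.e * y.d + x.f * y.g, x.d * y.b + x.e * y.e + x.f * y.h,
      x.d * y.c + x.e * y.f + x.f * y.i,
     x.g * y.a + x.h * y.d + x.i * y.g, x.g * y.b + x.h * y.e + x.i * y.h,
      x.g * y.c + x.h * y.f + x.i * y.i⟩ := rfl

theorem one_def : (1 : M3) = ⟨1, 0, 0, 0, 1, 0, 0, 0, 1⟩ := rfl

instance instMonoidM3 : Monoid M3 where
  mul_assoc x y z := by ext <;> simp only [mul_def] <;> ring
  one_mul x := by ext <;> simp [mul_def, one_def]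
  mul_one x := by ext <;> simp [mul_def, one_def]

/-- Matrix supported on the first column. -/
def col (v : ZMod 2 × ZMod 2 × ZMod 2) : M3 := ⟨v.1, 0, 0, v.2.1, 0, 0, v.2.2, 0, 0⟩

theorem mul_zero_col (x : M3) : x * col 0 = col 0 := by ext <;> simp [mul_def, col]

theorem cover : ∀ x : M3, (∃ e ∈ ([4, 3, 7] : List ℕ), x ^ e = 1) ∨
    ∃ v : ZMod 2 × ZMod 2 × ZMod 2, v ≠ 0 ∧ x * col v = col 0 := by decide +kernel

/-- Counting table of GL(3,2) on the divisors of 84. -/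
theorem counts : ∀ d ∈ Nat.divisors 84,
    (Finset.univ.filter fun x : M3 => ∃ e ∈ ([4, 3, 7] : List ℕ), x ^ Nat.gcd d e = 1).card =
      (([1, 2, 3, 4, 6, 7, 12, 14, 21, 28, 42, 84].zip
        [1, 22, 57, 64, 78, 49, 120, 70, 105, 112, 126, 168]).lookup d).getD 0 := by
  decide +kernel

theorem units_cover (g : M3ˣ) : ∃ e ∈ ([4, 3, 7] : List ℕ), g ^ e = 1 := by
  rcases cover g with ⟨e, he, h⟩ | ⟨v, hv, h⟩
  · exact ⟨e, he, Units.ext (by rw [Units.val_pow_eq_pow_val, Units.val_one]; exact h)⟩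
  · rw [← mul_zero_col g] at h
    exact absurd ((Units.mul_right_inj g).1 h)
      ((by decide : ∀ v : ZMod 2 × ZMod 2 × ZMod 2, v ≠ 0 → col v ≠ col 0) v hv)

theorem hasCounts : HasCounts M3ˣ 84 (fun d => (([1, 2, 3, 4, 6, 7, 12, 14, 21, 28, 42, 84].zip
    [1, 22, 57, 64, 78, 49, 120, 70, 105, 112, 126, 168]).lookup d).getD 0) where
  pow_eq_one g := by
    obtain ⟨e, he, hge⟩ := units_cover g
    have : ∀ e ∈ ([4, 3, 7] : List ℕ), e ∣ 84 := by decide
    obtain ⟨c, hc⟩ := this e he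
    rw [hc, pow_mul, hge, one_pow]
  card_eq d hd := by
    rw [← counts d hd]
    have hd0 : 0 < d := Nat.pos_of_mem_divisors hd
    have hgcd : ∀ e ∈ ([4, 3, 7] : List ℕ), 0 < Nat.gcd d e := fun e _ => Nat.gcd_pos_of_pos_left _ hd0
    rw [← Fintype.card_subtype, ← Nat.card_eq_fintype_card]
    refine Nat.card_eq_of_bijective (fun g => ⟨(g.1 : M3), ?_⟩) ⟨?_, ?_⟩
    · obtain ⟨e, he, hge⟩ := (pow_eq_one_iff_exists _ _ (units_cover g.1) d).1 g.2
      exact ⟨e, he, by rw [← Units.val_pow_eq_pow_val, hge, Units.val_one]⟩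
    · intro g g' h
      exact Subtype.ext (Units.ext (congrArg Subtype.val h))
    · rintro ⟨x, e, he, hx⟩
      have hd' : x ^ d = 1 := by
        obtain ⟨c, hc⟩ := Nat.gcd_dvd_left d e
        rw [hc, pow_mul, hx, one_pow]
      exact ⟨⟨Units.ofPowEqOne x d hd' hd0.ne', Units.ext (by simpa using hd')⟩, rfl⟩

/-- An involutive unit. -/
def inv2 (x : M3) (h : x * x = 1) : M3ˣ := ⟨x, x, h, h⟩

theorem not_isSolvable : ¬ Group.IsSolvable M3ˣ := by
  set u₁ : M3ˣ := inv2 ⟨1, 1, 0, 0, 1, 0, 0, 0, 1⟩ (by decide) with h₁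
  set u₂ : M3ˣ := inv2 ⟨1, 0, 1, 0, 1, 0, 0, 0, 1⟩ (by decide) with h₂
  set u₃ : M3ˣ := inv2 ⟨1, 0, 0, 1, 1, 0, 0, 0, 1⟩ (by decide) with h₃
  set u₄ : M3ˣ := inv2 ⟨1, 0, 0, 0, 1, 1, 0, 0, 1⟩ (by decide) with h₄
  set u₅ : M3ˣ := inv2 ⟨1, 0, 0, 0, 1, 0, 1, 0, 1⟩ (by decide) with h₅
  set u₆ : M3ˣ := inv2 ⟨1, 0, 0, 0, 1, 0, 0, 1, 1⟩ (by decide) with h₆
  intro hs
  obtain ⟨n, hn⟩ := (Group.isSolvable_def _).1 hs
  have key : ∀ n, u₁ ∈ derivedSeries M3ˣ n ∧ u₂ ∈ derivedSeries M3ˣ n ∧ u₃ ∈ derivedSeries M3ˣ n ∧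
      u₄ ∈ derivedSeries M3ˣ n ∧ u₅ ∈ derivedSeries M3ˣ n ∧ u₆ ∈ derivedSeries M3ˣ n := by
    intro n
    induction n with
    | zero => simp [derivedSeries_zero]
    | succ n ih =>
      obtain ⟨a₁, a₂, a₃, a₄, a₅, a₆⟩ := ih
      rw [derivedSeries_succ]
      refine ⟨?_, ?_, ?_, ?_, ?_, ?_⟩
      · rw [show u₁ = ⁅u₂, u₆⁆ by rw [commutatorElement_def]; apply Units.ext; decide]
        exact Subgroup.commutator_mem_commutator a₂ a₆
      · rw [show u₂ = ⁅u₁, u₄⁆ by rw [commutatorElement_def]; apply Units.ext; decide]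
        exact Subgroup.commutator_mem_commutator a₁ a₄
      · rw [show u₃ = ⁅u₄, u₅⁆ by rw [commutatorElement_def]; apply Units.ext; decide]
        exact Subgroup.commutator_mem_commutator a₄ a₅
      · rw [show u₄ = ⁅u₃, u₂⁆ by rw [commutatorElement_def]; apply Units.ext; decide]
        exact Subgroup.commutator_mem_commutator a₃ a₂
      · rw [show u₅ = ⁅u₆, u₃⁆ by rw [commutatorElement_def]; apply Units.ext; decide]
        exact Subgroup.commutator_mem_commutator a₆ a₃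
      · rw [show u₆ = ⁅u₅, u₁⁆ by rw [commutatorElement_def]; apply Units.ext; decide]
        exact Subgroup.commutator_mem_commutator a₅ a₁
  have := (key n).1
  rw [hn, Subgroup.mem_bot, Units.ext_iff] at this
  revert this
  decide

end M3

end Cfsg.Agent.OrderType
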